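import Mathlib

/-!
# S4247, orthogonal groups: the numeric lemma (helper704)
-/

set_option autoImplicit false

namespace Cfsg.Agent.H704.DPi

open Finset

theorem f_even (f : ℕ) : 8 * f ^ 2 ≤ 9 * 2 ^ f := by
  rcases Nat.lt_or_ge f 3 with h | h
  · interval_cases f <;> norm_num
  · induction f, h using Nat.le_induction with
    | base => norm_num
    | succ k hk ih =>
      have h1 : 2 ^ (k + 1) = 2 * 2 ^ k := by ring
      rw [h1]
      nlinarith

theorem f_odd (f : ℕ) : 9 * f ^ 2 ≤ 4 * 3 ^ f := by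
  rcases Nat.lt_or_ge f 2 with h | h
  · interval_cases f <;> norm_num
  · induction f, h using Nat.le_induction with
    | base => norm_num
    | succ k hk ih =>
      have h1 : 3 ^ (k + 1) = 3 * 3 ^ k := by ring
      rw [h1]
      nlinarith

/-- the product step -/
theorem prod_step {ι : Type*} [Fintype ι] [DecidableEq ι] {q : ℕ} (hq : 2 ≤ q) (m : ι → ℕ) (h4 : ∀ i, 4 ≤ q ^ m i)
    (J : Finset ι) (hJ : 1 ≤ J.card) (h16 : ∀ i ∈ J, 16 ≤ q ^ m i) {h N δ w : ℕ}
    (hh : h ^ 2 ≤ 3 ^ (Fintype.card ι - 1)) (hN : N = 2 * ∑ i, m i + δ) (hN7 : 2 ≤ N)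
    (hw : q ^ 4 * 17 ^ J.card * w ^ 2 < 3 * 5 ^ J.card * (∏ i ∈ J, q ^ m i) ^ 2 * q ^ (2 * δ)) :
    h * (∏ i, (q ^ m i + 1)) * w < q ^ (N - 2) := by
  have hcard : 1 ≤ Fintype.card ι := hJ.trans (Finset.card_le_univ J)
  have e1 : q ^ (N - 2) * q ^ 2 = (∏ i, q ^ m i) ^ 2 * q ^ δ := by
    rw [← pow_add, Nat.sub_add_cancel hN7, hN, pow_add, Finset.prod_pow_eq_pow_sum, ← pow_mul, mul_comm 2]
  have hA : ∏ i ∈ J, (15 * (q ^ m i + 1) ^ 2) ≤ ∏ i ∈ J, (17 * (q ^ m i) ^ 2) := by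
    apply Finset.prod_le_prod'
    intro i hi
    have := h16 i hi
    nlinarith
  have hB : ∏ i ∈ Jᶜ, (3 * (q ^ m i + 1) ^ 2) ≤ ∏ i ∈ Jᶜ, (q ^ m i) ^ 4 := by
    apply Finset.prod_le_prod'
    intro i _
    have h1 := h4 i
    generalize q ^ m i = X at h1
    have h2 : X + 1 ≤ 2 * X := by omega
    have h3 : (X + 1) ^ 2 ≤ 4 * X ^ 2 := by nlinarith
    have h5 : 16 ≤ X ^ 2 := by nlinarith
    nlinarith
  have hAB : 5 ^ J.card * 3 ^ Fintype.card ι * (∏ i, (q ^ m i + 1)) ^ 2 =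
      (∏ i ∈ J, (15 * (q ^ m i + 1) ^ 2)) * ∏ i ∈ Jᶜ, (3 * (q ^ m i + 1) ^ 2) := by
    rw [Finset.prod_mul_distrib, Finset.prod_mul_distrib, Finset.prod_const, Finset.prod_const,
      ← Finset.prod_mul_prod_compl J (fun i => q ^ m i + 1), mul_pow, ← Finset.prod_pow, ← Finset.prod_pow,
      Finset.card_compl]
    have h1 : J.card ≤ Fintype.card ι := Finset.card_le_univ J
    have h2 : (3 : ℕ) ^ Fintype.card ι = 3 ^ J.card * 3 ^ (Fintype.card ι - J.card) := by
      rw [← pow_add, Nat.add_sub_cancel' h1]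
    have h3 : (15 : ℕ) ^ J.card = 5 ^ J.card * 3 ^ J.card := by rw [← mul_pow]; norm_num
    rw [h2, h3]
    ring
  have hX : ∏ i, q ^ m i = (∏ i ∈ J, q ^ m i) * ∏ i ∈ Jᶜ, q ^ m i := (Finset.prod_mul_prod_compl J _).symm
  have hposC : 0 < ∏ i ∈ Jᶜ, q ^ m i := Finset.prod_pos fun i _ => Nat.pow_pos (by omega)
  have hposJ : 0 < ∏ i ∈ J, q ^ m i := Finset.prod_pos fun i _ => Nat.pow_pos (by omega)
  set XJ := ∏ i ∈ J, q ^ m i with hXJ
  set XC := ∏ i ∈ Jᶜ, q ^ m i with hXC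
  set Y := ∏ i, (q ^ m i + 1) with hY
  have h3 : 3 * h ^ 2 ≤ 3 ^ Fintype.card ι := by
    calc 3 * h ^ 2 ≤ 3 * 3 ^ (Fintype.card ι - 1) := Nat.mul_le_mul_left _ hh
      _ = 3 ^ Fintype.card ι := by rw [← pow_succ', Nat.sub_add_cancel hcard]
  have hA' : ∏ i ∈ J, (17 * (q ^ m i) ^ 2) = 17 ^ J.card * XJ ^ 2 := by
    rw [Finset.prod_mul_distrib, Finset.prod_const, Finset.prod_pow]
  have hB' : ∏ i ∈ Jᶜ, (q ^ m i) ^ 4 = XC ^ 4 := Finset.prod_pow _ _ _
  rw [hA'] at hA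
  rw [hB'] at hB
  -- the comparison of squares
  have key : 3 * 5 ^ J.card * q ^ 4 * (h * Y * w) ^ 2 < 3 * 5 ^ J.card * q ^ 4 * (q ^ (N - 2)) ^ 2 := by
    calc 3 * 5 ^ J.card * q ^ 4 * (h * Y * w) ^ 2
        = (3 * h ^ 2) * (5 ^ J.card * Y ^ 2 * q ^ 4 * w ^ 2) := by ring
      _ ≤ 3 ^ Fintype.card ι * (5 ^ J.card * Y ^ 2 * q ^ 4 * w ^ 2) := Nat.mul_le_mul_right _ h3
      _ = (5 ^ J.card * 3 ^ Fintype.card ι * Y ^ 2) * (q ^ 4 * w ^ 2) := by ring
      _ = ((∏ i ∈ J, (15 * (q ^ m i + 1) ^ 2)) * ∏ i ∈ Jᶜ, (3 * (q ^ m i + 1) ^ 2)) * (q ^ 4 * w ^ 2) := by rw [hAB]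
      _ ≤ (17 ^ J.card * XJ ^ 2 * XC ^ 4) * (q ^ 4 * w ^ 2) :=
          Nat.mul_le_mul_right _ (Nat.mul_le_mul hA hB)
      _ = (q ^ 4 * 17 ^ J.card * w ^ 2) * (XJ ^ 2 * XC ^ 4) := by ring
      _ < (3 * 5 ^ J.card * XJ ^ 2 * q ^ (2 * δ)) * (XJ ^ 2 * XC ^ 4) :=
          Nat.mul_lt_mul_of_pos_right hw (by positivity)
      _ = 3 * 5 ^ J.card * ((XJ * XC) ^ 2 * q ^ δ) ^ 2 := by ring
      _ = 3 * 5 ^ J.card * (q ^ (N - 2) * q ^ 2) ^ 2 := by rw [← hX, ← e1]
      _ = 3 * 5 ^ J.card * q ^ 4 * (q ^ (N - 2)) ^ 2 := by ring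
  have h5 := Nat.lt_of_mul_lt_mul_left key
  exact lt_of_pow_lt_pow_left₀ 2 (Nat.zero_le _) h5

/-- **The numeric lemma for the orthogonal groups.** -/
theorem num_o {ι : Type*} [Fintype ι] {p f q : ℕ} (hp : p.Prime) (hf : 0 < f) (hq : q = p ^ f) (m : ι → ℕ)
    (h4 : ∀ i, 4 ≤ q ^ m i) (J : Finset ι) (hJ : 3 ≤ J.card) (h16 : ∀ i ∈ J, 16 ≤ q ^ m i)
    (h29 : Odd q → ∀ i ∈ J, 29 ≤ q ^ m i) {h N δ c out : ℕ} (hh : h ^ 2 ≤ 3 ^ (Fintype.card ι - 1))
    (hN : N = 2 * ∑ i, m i + δ) (hδ : δ ≤ 2) (hN7 : 7 ≤ N) (hc0 : δ = 0 → c ≤ 1) (hc1 : δ = 1 → c ≤ 2)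
    (hc2 : δ = 2 → c ≤ 2 * (q + 1)) (ho : out ≤ 24 * f) (ho2 : Even q → out ≤ 6 * f) :
    h * (∏ i, (q ^ m i + 1)) * (c * out) < q ^ (N - 2) := by
  classical
  have hq2 : 2 ≤ q := by
    rw [hq]
    exact hp.two_le.trans (Nat.le_self_pow hf.ne' p)
  -- the bound for `out`
  have hout : (Even q ∧ 2 * out ^ 2 ≤ 81 * q) ∨ (Odd q ∧ 3 ≤ q ∧ out ^ 2 ≤ 256 * q) := by
    rcases Nat.even_or_odd q with he | he
    · left
      refine ⟨he, ?_⟩
      have h1 : 2 ^ f ≤ q := by rw [hq]; exact Nat.pow_le_pow_left hp.two_le f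
      have h2 := f_even f
      have h3 := ho2 he
      have h5 : out ^ 2 ≤ (6 * f) ^ 2 := Nat.pow_le_pow_left h3 2
      nlinarith
    · right
      have hp3 : 3 ≤ p := by
        have h1 := hp.two_le
        have h2 : p ≠ 2 := by
          rintro rfl
          rw [hq] at he
          have h3 : Even (2 ^ f) := (Nat.even_pow' hf.ne').2 even_two
          exact (Nat.not_even_iff_odd.2 he) h3
        omega
      have h1 : 3 ^ f ≤ q := by rw [hq]; exact Nat.pow_le_pow_left hp3 f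
      refine ⟨he, ?_, ?_⟩
      · exact (Nat.le_self_pow hf.ne' 3).trans h1
      · have h2 := f_odd f
        have h5 : out ^ 2 ≤ (24 * f) ^ 2 := Nat.pow_le_pow_left ho 2
        nlinarith
  have hm1 : ∀ i, 1 ≤ m i := by
    intro i
    rcases Nat.eq_zero_or_pos (m i) with h0 | h0
    · have := h4 i
      rw [h0, pow_zero] at this
      omega
    · exact h0
  have hXq : ∀ i, q ≤ q ^ m i := fun i => Nat.le_self_pow (by have := hm1 i; omega) q
  -- three blocks
  obtain ⟨J3, hJ3, hc3⟩ := Finset.exists_subset_card_eq hJ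
  obtain ⟨a, b, d, hab, had, hbd, rfl⟩ := Finset.card_eq_three.1 hc3
  have ha16 := h16 a (hJ3 (by simp))
  have hb16 := h16 b (hJ3 (by simp))
  have hd16 := h16 d (hJ3 (by simp))
  have hprod : ∏ i ∈ ({a, b, d} : Finset ι), q ^ m i = q ^ (m a + m b + m d) := by
    rw [Finset.prod_insert (by simp [hab, had]), Finset.prod_insert (by simp [hbd]), Finset.prod_singleton, pow_add,
      pow_add]
    ring
  have hprod' : ∏ i ∈ ({a, b, d} : Finset ι), q ^ m i = q ^ m a * q ^ m b * q ^ m d := by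
    rw [hprod, pow_add, pow_add]
  have hP16 : 16 ^ 3 ≤ q ^ (m a + m b + m d) := by
    rw [pow_add, pow_add]
    calc 16 ^ 3 = 16 * 16 * 16 := by norm_num
      _ ≤ _ := Nat.mul_le_mul (Nat.mul_le_mul ha16 hb16) hd16
  -- the square of the product
  have hP : (Even q → 4096 * q ^ 3 ≤ (q ^ (m a + m b + m d)) ^ 2 ∧
        (4 ≤ m a + m b + m d → 4096 * q ^ 5 ≤ (q ^ (m a + m b + m d)) ^ 2)) ∧
      (Odd q → 24389 * q ^ 3 ≤ (q ^ (m a + m b + m d)) ^ 2 ∧
        (4 ≤ m a + m b + m d → 24389 * q ^ 5 ≤ (q ^ (m a + m b + m d)) ^ 2)) := by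
    have gen : ∀ t : ℕ, 2 ≤ t → t ≤ q ^ m a → t ≤ q ^ m b → t ≤ q ^ m d →
        t ^ 3 * q ^ 3 ≤ (q ^ (m a + m b + m d)) ^ 2 ∧
        (4 ≤ m a + m b + m d → t ^ 3 * q ^ 5 ≤ (q ^ (m a + m b + m d)) ^ 2) := by
      intro t ht h1 h2 h3
      have hb0 : t ^ 3 ≤ q ^ (m a + m b + m d) := by
        rw [pow_add, pow_add]
        calc t ^ 3 = t * t * t := by ring
          _ ≤ _ := Nat.mul_le_mul (Nat.mul_le_mul h1 h2) h3
      have hb1 : q ^ 3 ≤ q ^ (m a + m b + m d) :=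
        Nat.pow_le_pow_right (by omega) (by have := hm1 a; have := hm1 b; have := hm1 d; omega)
      refine ⟨?_, ?_⟩
      · rw [pow_two]
        exact Nat.mul_le_mul hb0 hb1
      · intro h4'
        rcases Nat.lt_or_ge q t with hqt | hqt
        · -- all exponents are at least two
          have g : ∀ i, t ≤ q ^ m i → 2 ≤ m i := by
            intro i hi
            by_contra hcon
            have h5 : m i = 1 := by have := hm1 i; omega
            rw [h5, pow_one] at hi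
            omega
          have g1 := g a h1
          have g2 := g b h2
          have g3 := g d h3
          rw [pow_two]
          exact Nat.mul_le_mul hb0 (Nat.pow_le_pow_right (by omega) (by omega))
        · calc t ^ 3 * q ^ 5 ≤ q ^ 3 * q ^ 5 := Nat.mul_le_mul_right _ (Nat.pow_le_pow_left hqt 3)
            _ = q ^ (4 * 2) := by rw [← pow_add]
            _ ≤ q ^ ((m a + m b + m d) * 2) := Nat.pow_le_pow_right (by omega) (by omega)
            _ = _ := pow_mul _ _ _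
    refine ⟨fun _ => ?_, fun ho' => ?_⟩
    · have := gen 16 (by norm_num) ha16 hb16 hd16
      norm_num at this
      exact this
    · have := gen 29 (by norm_num) (h29 ho' a (hJ3 (by simp))) (h29 ho' b (hJ3 (by simp))) (h29 ho' d (hJ3 (by simp)))
      norm_num at this
      exact this
  -- the case of three blocks
  have main3 : q ^ 4 * 17 ^ 3 * (c * out) ^ 2 < 3 * 5 ^ 3 * (q ^ (m a + m b + m d)) ^ 2 * q ^ (2 * δ) →
      h * (∏ i, (q ^ m i + 1)) * (c * out) < q ^ (N - 2) := by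
    intro hlt
    refine prod_step hq2 m h4 {a, b, d} (by rw [hc3]; norm_num) (fun i hi => h16 i (hJ3 hi)) hh hN (by omega) ?_
    rw [hc3, hprod]
    exact hlt
  have hqpos : 0 < q := by omega
  obtain ⟨hPe, hPo⟩ := hP
  have hδ' : δ = 0 ∨ δ = 1 ∨ δ = 2 := by omega
  rcases hδ' with rfl | rfl | rfl
  · -- `δ = 0`
    have hc := hc0 rfl
    have hco : (c * out) ^ 2 ≤ out ^ 2 := by
      apply Nat.pow_le_pow_left
      calc c * out ≤ 1 * out := Nat.mul_le_mul_right _ hc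
        _ = out := one_mul _
    by_cases h4' : 4 ≤ m a + m b + m d
    · apply main3
      rw [mul_zero, pow_zero, mul_one]
      rcases hout with ⟨he, h2⟩ | ⟨ho', h3, h2⟩
      · have h5 := (hPe he).2 h4'
        have h6 : q ^ 4 * 17 ^ 3 * (c * out) ^ 2 ≤ q ^ 4 * 17 ^ 3 * out ^ 2 := Nat.mul_le_mul_left _ hco
        have h7 : q ^ 5 = q ^ 4 * q := pow_succ _ _
        have h8 : 0 < q ^ 4 := Nat.pow_pos hqpos
        generalize q ^ 4 = Q at *
        generalize (q ^ (m a + m b + m d)) ^ 2 = Z at *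
        have h9 : Q * (2 * out ^ 2) ≤ Q * (81 * q) := Nat.mul_le_mul_left _ h2
        have h10 : 0 < Q * q := Nat.mul_pos h8 hqpos
        rw [h7] at h5
        nlinarith
      · have h5 := (hPo ho').2 h4'
        have h6 : q ^ 4 * 17 ^ 3 * (c * out) ^ 2 ≤ q ^ 4 * 17 ^ 3 * out ^ 2 := Nat.mul_le_mul_left _ hco
        have h7 : q ^ 5 = q ^ 4 * q := pow_succ _ _
        have h8 : 0 < q ^ 4 := Nat.pow_pos hqpos
        generalize q ^ 4 = Q at *
        generalize (q ^ (m a + m b + m d)) ^ 2 = Z at *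
        have h9 : Q * out ^ 2 ≤ Q * (256 * q) := Nat.mul_le_mul_left _ h2
        have h10 : 0 < Q * q := Nat.mul_pos h8 hqpos
        rw [h7] at h5
        nlinarith
    · -- all three blocks are planes: there is a fourth one
      have ga := hm1 a
      have gb := hm1 b
      have gd := hm1 d
      have ea : m a = 1 := by omega
      have eb : m b = 1 := by omega
      have ed : m d = 1 := by omega
      obtain ⟨e, he⟩ : ∃ e, e ∉ ({a, b, d} : Finset ι) := by
        by_contra hcon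
        push Not at hcon
        have h1 : (Finset.univ : Finset ι) = {a, b, d} := by
          ext i; simp only [Finset.mem_univ, true_iff]; exact hcon i
        rw [h1, Finset.sum_insert (by simp [hab, had]), Finset.sum_insert (by simp [hbd]), Finset.sum_singleton] at hN
        omega
      rw [ea, pow_one] at ha16
      have hqe : q ≤ q ^ m e := hXq e
      have hcard : (insert e ({a, b, d} : Finset ι)).card = 4 := by rw [Finset.card_insert_of_notMem he, hc3]
      refine prod_step hq2 m h4 (insert e {a, b, d}) (by rw [hcard]; norm_num) ?_ hh hN (by omega) ?_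
      · intro i hi
        rw [Finset.mem_insert] at hi
        rcases hi with rfl | hi
        · omega
        · exact h16 i (hJ3 hi)
      · rw [hcard, Finset.prod_insert he, hprod, ea, eb, ed, mul_zero, pow_zero, mul_one]
        have h1 : q ^ 4 ≤ q ^ m e * q ^ (1 + 1 + 1) := by
          calc q ^ 4 = q * q ^ 3 := by ring
            _ ≤ _ := Nat.mul_le_mul_right _ hqe
        have h2 : (q ^ 4) ^ 2 ≤ (q ^ m e * q ^ (1 + 1 + 1)) ^ 2 := Nat.pow_le_pow_left h1 2
        generalize (q ^ m e * q ^ (1 + 1 + 1)) ^ 2 = Z at h2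
        have h6 : q ^ 4 * 17 ^ 4 * (c * out) ^ 2 ≤ q ^ 4 * 17 ^ 4 * out ^ 2 := Nat.mul_le_mul_left _ hco
        have h8 : 0 < q ^ 4 := Nat.pow_pos hqpos
        have key : 83521 * out ^ 2 < 1875 * q ^ 4 := by
          rcases hout with ⟨he', h3⟩ | ⟨ho', h5, h3⟩
          · have h9 : 16 ^ 3 ≤ q ^ 3 := Nat.pow_le_pow_left ha16 3
            have h10 : q ^ 4 = q ^ 3 * q := pow_succ _ _
            rw [h10]
            have h11 : 16 ^ 3 * q ≤ q ^ 3 * q := Nat.mul_le_mul_right _ h9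
            nlinarith
          · have h12 := h29 ho' a (hJ3 (by simp))
            rw [ea, pow_one] at h12
            have h9 : 29 ^ 3 ≤ q ^ 3 := Nat.pow_le_pow_left h12 3
            have h10 : q ^ 4 = q ^ 3 * q := pow_succ _ _
            rw [h10]
            have h11 : 29 ^ 3 * q ≤ q ^ 3 * q := Nat.mul_le_mul_right _ h9
            nlinarith
        calc q ^ 4 * 17 ^ 4 * (c * out) ^ 2 ≤ q ^ 4 * 17 ^ 4 * out ^ 2 := h6
          _ = q ^ 4 * (83521 * out ^ 2) := by ring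
          _ < q ^ 4 * (1875 * q ^ 4) := Nat.mul_lt_mul_of_pos_left key h8
          _ = 3 * 5 ^ 4 * (q ^ 4) ^ 2 := by ring
          _ ≤ 3 * 5 ^ 4 * Z := Nat.mul_le_mul_left _ h2
  · -- `δ = 1`
    apply main3
    have hc := hc1 rfl
    have hco : (c * out) ^ 2 ≤ 4 * out ^ 2 := by
      calc (c * out) ^ 2 ≤ (2 * out) ^ 2 := Nat.pow_le_pow_left (Nat.mul_le_mul_right _ hc) 2
        _ = 4 * out ^ 2 := by ring
    rw [mul_one]
    have h8 : 0 < q ^ 2 := Nat.pow_pos hqpos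
    have e4 : q ^ 4 = q ^ 2 * q ^ 2 := by ring
    have key : 17 ^ 3 * (4 * out ^ 2) * q ^ 2 < 3 * 5 ^ 3 * (q ^ (m a + m b + m d)) ^ 2 := by
      rcases hout with ⟨he, h2⟩ | ⟨ho', h3, h2⟩
      · have h5 := (hPe he).1
        have h7 : q ^ 3 = q ^ 2 * q := pow_succ _ _
        rw [h7] at h5
        generalize (q ^ (m a + m b + m d)) ^ 2 = Z at *
        have h9 : q ^ 2 * (2 * out ^ 2) ≤ q ^ 2 * (81 * q) := Nat.mul_le_mul_left _ h2
        have h10 : 0 < q ^ 2 * q := Nat.mul_pos h8 hqpos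
        nlinarith
      · have h5 := (hPo ho').1
        have h7 : q ^ 3 = q ^ 2 * q := pow_succ _ _
        rw [h7] at h5
        generalize (q ^ (m a + m b + m d)) ^ 2 = Z at *
        have h9 : q ^ 2 * out ^ 2 ≤ q ^ 2 * (256 * q) := Nat.mul_le_mul_left _ h2
        have h10 : 0 < q ^ 2 * q := Nat.mul_pos h8 hqpos
        nlinarith
    calc q ^ 4 * 17 ^ 3 * (c * out) ^ 2 ≤ q ^ 4 * 17 ^ 3 * (4 * out ^ 2) := Nat.mul_le_mul_left _ hco
      _ = (17 ^ 3 * (4 * out ^ 2) * q ^ 2) * q ^ 2 := by rw [e4]; ring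
      _ < (3 * 5 ^ 3 * (q ^ (m a + m b + m d)) ^ 2) * q ^ 2 := Nat.mul_lt_mul_of_pos_right key h8
  · -- `δ = 2`
    apply main3
    have hc := hc2 rfl
    have hco : (c * out) ^ 2 ≤ 4 * (q + 1) ^ 2 * out ^ 2 := by
      calc (c * out) ^ 2 ≤ (2 * (q + 1) * out) ^ 2 := Nat.pow_le_pow_left (Nat.mul_le_mul_right _ hc) 2
        _ = 4 * (q + 1) ^ 2 * out ^ 2 := by ring
    have h8 : 0 < q ^ 4 := Nat.pow_pos hqpos
    have key : 17 ^ 3 * (4 * (q + 1) ^ 2 * out ^ 2) < 3 * 5 ^ 3 * (q ^ (m a + m b + m d)) ^ 2 := by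
      rcases hout with ⟨he, h2⟩ | ⟨ho', h3, h2⟩
      · rcases Nat.lt_or_ge q 16 with hq16 | hq16
        · -- `P ≥ q ^ 6` and `P ≥ 16 ^ 3`
          have g : ∀ i, 16 ≤ q ^ m i → 2 ≤ m i := by
            intro i hi
            by_contra hcon
            have h5 : m i = 1 := by have := hm1 i; omega
            rw [h5, pow_one] at hi
            omega
          have g1 := g a ha16
          have g2 := g b hb16
          have g3 := g d hd16
          have h6 : q ^ 6 ≤ q ^ (m a + m b + m d) := Nat.pow_le_pow_right hqpos (by omega)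
          have h9 : 16 ^ 3 * q ^ 6 ≤ (q ^ (m a + m b + m d)) ^ 2 := by
            rw [pow_two (q ^ (m a + m b + m d))]
            exact Nat.mul_le_mul hP16 h6
          have hq248 : q = 2 ∨ q = 4 ∨ q = 6 ∨ q = 8 ∨ q = 10 ∨ q = 12 ∨ q = 14 := by
            obtain ⟨r, hr⟩ := he
            omega
          generalize (q ^ (m a + m b + m d)) ^ 2 = Z at *
          rcases hq248 with rfl | rfl | rfl | rfl | rfl | rfl | rfl <;> norm_num at h9 ⊢ <;> omega
        · have h5 := (hPe he).1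
          have h9 : 16 * (q + 1) ≤ 17 * q := by omega
          have h10 : (16 * (q + 1)) ^ 2 ≤ (17 * q) ^ 2 := Nat.pow_le_pow_left h9 2
          have h11 : 256 * (q + 1) ^ 2 ≤ 289 * q ^ 2 := by nlinarith
          have h12 : (256 * (q + 1) ^ 2) * (2 * out ^ 2) ≤ (289 * q ^ 2) * (81 * q) := Nat.mul_le_mul h11 h2
          have h13 : 16 ^ 3 * q ^ 3 ≤ (q ^ (m a + m b + m d)) ^ 2 := by
            calc 16 ^ 3 * q ^ 3 = 4096 * q ^ 3 := by norm_num
              _ ≤ _ := h5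
          have h14 : 0 < q ^ 3 := Nat.pow_pos hqpos
          have e3 : q ^ 2 * q = q ^ 3 := (pow_succ _ _).symm
          generalize (q ^ (m a + m b + m d)) ^ 2 = Z at *
          have h15 : 512 * ((q + 1) ^ 2 * out ^ 2) ≤ 23409 * q ^ 3 := by
            calc 512 * ((q + 1) ^ 2 * out ^ 2) = (256 * (q + 1) ^ 2) * (2 * out ^ 2) := by ring
              _ ≤ (289 * q ^ 2) * (81 * q) := h12
              _ = 23409 * q ^ 3 := by ring
          nlinarith
      · have h5 := (hPo ho').1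
        have h9 : 3 * (q + 1) ≤ 4 * q := by omega
        rcases Nat.lt_or_ge q 29 with hq29 | hq29
        · have g : ∀ i, 29 ≤ q ^ m i → 2 ≤ m i := by
            intro i hi
            by_contra hcon
            have h5 : m i = 1 := by have := hm1 i; omega
            rw [h5, pow_one] at hi
            omega
          have g1 := g a (h29 ho' a (hJ3 (by simp)))
          have g2 := g b (h29 ho' b (hJ3 (by simp)))
          have g3 := g d (h29 ho' d (hJ3 (by simp)))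
          have h6 : q ^ 6 ≤ q ^ (m a + m b + m d) := Nat.pow_le_pow_right hqpos (by omega)
          have h7 : 29 ^ 3 ≤ q ^ (m a + m b + m d) := by
            rw [pow_add, pow_add]
            calc 29 ^ 3 = 29 * 29 * 29 := by norm_num
              _ ≤ _ := Nat.mul_le_mul (Nat.mul_le_mul (h29 ho' a (hJ3 (by simp))) (h29 ho' b (hJ3 (by simp))))
                  (h29 ho' d (hJ3 (by simp)))
          have h10 : 29 ^ 3 * q ^ 6 ≤ (q ^ (m a + m b + m d)) ^ 2 := by
            rw [pow_two (q ^ (m a + m b + m d))]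
            exact Nat.mul_le_mul h7 h6
          have h11 : (3 * (q + 1)) ^ 2 ≤ (4 * q) ^ 2 := Nat.pow_le_pow_left h9 2
          have h12 : 9 * (q + 1) ^ 2 ≤ 16 * q ^ 2 := by nlinarith
          have h13 : 9 * ((q + 1) ^ 2 * out ^ 2) ≤ 4096 * q ^ 3 := by
            calc 9 * ((q + 1) ^ 2 * out ^ 2) = (9 * (q + 1) ^ 2) * out ^ 2 := by ring
              _ ≤ (16 * q ^ 2) * (256 * q) := Nat.mul_le_mul h12 h2
              _ = 4096 * q ^ 3 := by ring
          have h14 : 0 < q ^ 3 := Nat.pow_pos hqpos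
          have h15 : 27 ≤ q ^ 3 := by
            calc 27 = 3 ^ 3 := by norm_num
              _ ≤ q ^ 3 := Nat.pow_le_pow_left h3 3
          have h16' : q ^ 6 = q ^ 3 * q ^ 3 := by ring
          rw [h16'] at h10
          generalize (q ^ (m a + m b + m d)) ^ 2 = Z at *
          have h17 : 27 * q ^ 3 ≤ q ^ 3 * q ^ 3 := Nat.mul_le_mul_right _ h15
          nlinarith
        · have h10 : 29 * (q + 1) ≤ 30 * q := by omega
          have h11 : (29 * (q + 1)) ^ 2 ≤ (30 * q) ^ 2 := Nat.pow_le_pow_left h10 2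
          have h12 : 841 * (q + 1) ^ 2 ≤ 900 * q ^ 2 := by nlinarith
          have h13 : 841 * ((q + 1) ^ 2 * out ^ 2) ≤ 230400 * q ^ 3 := by
            calc 841 * ((q + 1) ^ 2 * out ^ 2) = (841 * (q + 1) ^ 2) * out ^ 2 := by ring
              _ ≤ (900 * q ^ 2) * (256 * q) := Nat.mul_le_mul h12 h2
              _ = 230400 * q ^ 3 := by ring
          have h14 : 0 < q ^ 3 := Nat.pow_pos hqpos
          generalize (q ^ (m a + m b + m d)) ^ 2 = Z at *
          nlinarith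
    calc q ^ 4 * 17 ^ 3 * (c * out) ^ 2 ≤ q ^ 4 * 17 ^ 3 * (4 * (q + 1) ^ 2 * out ^ 2) := Nat.mul_le_mul_left _ hco
      _ = q ^ 4 * (17 ^ 3 * (4 * (q + 1) ^ 2 * out ^ 2)) := by ring
      _ < q ^ 4 * (3 * 5 ^ 3 * (q ^ (m a + m b + m d)) ^ 2) := Nat.mul_lt_mul_of_pos_left key h8
      _ = 3 * 5 ^ 3 * (q ^ (m a + m b + m d)) ^ 2 * q ^ (2 * 2) := by ring

end Cfsg.Agent.H704.DPi
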