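import Cfsg.Agent.H704.DPi.NumO
import Cfsg.Agent.H500.AS.Index
import Cfsg.Agent.S2143
import Cfsg.Agent.S2144
import Cfsg.Agent.S2145
import Cfsg.Agent.S2146
import Cfsg.Agent.S2147
import Cfsg.Agent.S0816
import Cfsg.Agent.S0817
import Cfsg.Agent.S0818
import Cfsg.Prelude.Def_KGroupFacts

/-!
# S4247, orthogonal groups: the count against the minimal index (helper704)

`OB X q N` : for frame numbers `m i` (blocks of dimension `2 m i`, `N = 2 ∑ m i + δ`) the number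
`h ∏ (q ^ (m i) + 1) c |Out X|` is smaller than the index of every proper subgroup of `X`.
`ob_odd`, `ob_plus`, `ob_minus` : for the groups `PΩ_N(q)`, `N ≥ 7`.
-/

set_option autoImplicit false

namespace Cfsg.Agent.H704.DPi

open Finset Subgroup

universe u

/-- the count -/
def OB (X : Type u) [Group X] (q N : ℕ) : Prop :=
  ∀ (ι : Type) [Fintype ι] (m : ι → ℕ) (_ : ∀ i, 4 ≤ q ^ m i) (J : Finset ι) (_ : 3 ≤ J.card)
    (_ : ∀ i ∈ J, 16 ≤ q ^ m i) (_ : Odd q → ∀ i ∈ J, 29 ≤ q ^ m i) (h δ c : ℕ)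
    (_ : h ^ 2 ≤ 3 ^ (Fintype.card ι - 1)) (_ : N = 2 * ∑ i, m i + δ) (_ : δ ≤ 2) (_ : δ = 0 → c ≤ 1)
    (_ : δ = 1 → c ≤ 2) (_ : δ = 2 → c ≤ 2 * (q + 1)) (H : Subgroup X), H ≠ ⊤ →
    h * (∏ i, (q ^ m i + 1)) * (c * Nat.card (Cfsg.Out X)) < H.index

theorem ob_of {X : Type u} [Group X] {p f q N : ℕ} (hp : p.Prime) (hf : 0 < f) (hq : q = p ^ f) (hN7 : 7 ≤ N)
    (ho : Nat.card (Cfsg.Out X) ≤ 24 * f) (ho2 : Even q → Nat.card (Cfsg.Out X) ≤ 6 * f)
    (hidx : ∀ H : Subgroup X, H ≠ ⊤ → q ^ (N - 2) ≤ H.index) : OB X q N := by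
  intro ι _ m h4 J hJ h16 h29 h δ c hh hN hδ hc0 hc1 hc2 H hH
  exact (num_o hp hf hq m h4 J hJ h16 h29 hh hN hδ hN7 hc0 hc1 hc2 ho ho2).trans_le (hidx H hH)

theorem ob_three {X : Type u} [Group X] {N : ℕ} (hN7 : 7 ≤ N)
    (ho : Nat.card (Cfsg.Out X) ≤ 24) (hidx : ∀ H : Subgroup X, H ≠ ⊤ → 3 ^ (N - 3) ≤ H.index) : OB X 3 N := by
  intro ι _ m h4 J hJ h16 h29 h δ c hh hN hδ hc0 hc1 hc2 H hH
  classical
  refine lt_of_lt_of_le ?_ (hidx H hH)
  obtain ⟨J3, hJ3, hc3⟩ := Finset.exists_subset_card_eq hJ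
  have h1 : h * (∏ i, (3 ^ m i + 1)) * (3 * (c * Nat.card (Cfsg.Out X))) < 3 ^ (N - 2) := by
    refine prod_step (by norm_num) m h4 J3 (by omega) (fun i hi => h16 i (hJ3 hi)) hh hN (by omega) ?_
    have hX : ∀ i ∈ J3, 81 ≤ 3 ^ m i := by
      intro i hi
      have h2 := h29 (by decide) i (hJ3 hi)
      have h3 : 4 ≤ m i := by
        by_contra hcon
        have : m i ≤ 3 := by omega
        have h4 : 3 ^ m i ≤ 3 ^ 3 := Nat.pow_le_pow_right (by norm_num) this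
        omega
      calc 81 = 3 ^ 4 := by norm_num
        _ ≤ 3 ^ m i := Nat.pow_le_pow_right (by norm_num) h3
    have hP : 81 ^ 3 ≤ ∏ i ∈ J3, 3 ^ m i := by
      have h5 : ∏ _i ∈ J3, 81 ≤ ∏ i ∈ J3, 3 ^ m i := Finset.prod_le_prod' hX
      rwa [Finset.prod_const, hc3] at h5
    have hc : c ≤ 8 := by
      have : δ = 0 ∨ δ = 1 ∨ δ = 2 := by omega
      rcases this with h0 | h0 | h0
      · exact (hc0 h0).trans (by norm_num)
      · exact (hc1 h0).trans (by norm_num)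
      · exact (hc2 h0).trans (by norm_num)
    have hw : 3 * (c * Nat.card (Cfsg.Out X)) ≤ 576 := by
      calc 3 * (c * Nat.card (Cfsg.Out X)) ≤ 3 * (8 * 24) := Nat.mul_le_mul_left _ (Nat.mul_le_mul hc ho)
        _ = 576 := by norm_num
    rw [hc3]
    calc 3 ^ 4 * 17 ^ 3 * (3 * (c * Nat.card (Cfsg.Out X))) ^ 2 ≤ 3 ^ 4 * 17 ^ 3 * 576 ^ 2 :=
          Nat.mul_le_mul_left _ (Nat.pow_le_pow_left hw 2)
      _ < 3 * 5 ^ 3 * (81 ^ 3) ^ 2 * 1 := by norm_num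
      _ ≤ 3 * 5 ^ 3 * (∏ i ∈ J3, 3 ^ m i) ^ 2 * 3 ^ (2 * δ) :=
          Nat.mul_le_mul (Nat.mul_le_mul_left _ (Nat.pow_le_pow_left hP 2)) (Nat.one_le_pow _ _ (by norm_num))
  have h2 : 3 ^ (N - 2) = 3 * 3 ^ (N - 3) := by
    rw [show N - 2 = (N - 3) + 1 by omega, pow_succ']
  rw [h2] at h1
  have h3 : h * (∏ i, (3 ^ m i + 1)) * (3 * (c * Nat.card (Cfsg.Out X))) =
      3 * (h * (∏ i, (3 ^ m i + 1)) * (c * Nat.card (Cfsg.Out X))) := by ring
  rw [h3] at h1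
  exact Nat.lt_of_mul_lt_mul_left h1

/-- the order of the outer automorphism group -/
theorem card_out {X : Type u} [Group X] [Finite X] (hZ : center X = ⊥) {k : ℕ}
    (h : Nat.card (MulAut X) = k * Nat.card X) : Nat.card (Cfsg.Out X) = k := by
  have hinj : Function.Injective (MulAut.conj : X →* MulAut X) := by
    rw [← MonoidHom.ker_eq_bot_iff, eq_bot_iff]
    intro a ha
    rw [← hZ, mem_center_iff]
    intro x
    have h1 : MulAut.conj a x = x := by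
      rw [MonoidHom.mem_ker.1 ha]; rfl
    rw [MulAut.conj_apply, mul_inv_eq_iff_eq_mul] at h1
    exact h1.symm
  have h1 : Nat.card X = Nat.card (Cfsg.Inn X) := Nat.card_congr (MonoidHom.ofInjective hinj).toEquiv
  have h2 : Nat.card (MulAut X) = Nat.card (Cfsg.Out X) * Nat.card (Cfsg.Inn X) :=
    Subgroup.card_eq_card_quotient_mul_card_subgroup (Cfsg.Inn X)
  rw [h, h1] at h2
  exact (Nat.eq_of_mul_eq_mul_right Nat.card_pos h2).symm

theorem even_pow {p f : ℕ} (hp : p.Prime) (h : Even (p ^ f)) : p = 2 := by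
  by_contra hne
  have h1 : Odd p := hp.odd_of_ne_two hne
  exact (Nat.not_even_iff_odd.2 (h1.pow)) h

/-- `PΩ_{2m+1}(q)` -/
theorem ob_odd {F : Type u} [Field F] [Fintype F] {p f : ℕ} (hp : p.Prime) (hf : 1 ≤ f) (hF : Fintype.card F = p ^ f)
    (hodd : Odd p) {m : ℕ} (hm : 3 ≤ m) (hZ : center (Cfsg.POmega F (Cfsg.quadFormOdd m F)) = ⊥) :
    OB (Cfsg.POmega F (Cfsg.quadFormOdd m F)) (p ^ f) (2 * m + 1) := by
  have := Fact.mk hp
  haveI : Finite (Cfsg.isometryGroup F (Cfsg.quadFormOdd m F)) := inferInstance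
  haveI : Finite (Cfsg.POmega F (Cfsg.quadFormOdd m F)) := inferInstance
  have hout := card_out hZ (S0816.result p f hf hF hodd m hm)
  have hqo : Odd (p ^ f) := hodd.pow
  refine ob_of hp hf rfl (by omega) (by rw [hout]; omega) (fun he => absurd he (Nat.not_even_iff_odd.2 hqo)) ?_
  intro H hH
  have hp3 : 3 ≤ p := by
    have := hp.two_le
    have h2 : p ≠ 2 := by rintro rfl; exact absurd hodd (by decide)
    omega
  have hq3 : 3 ≤ p ^ f := hp3.trans (Nat.le_self_pow (by omega) p)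
  have e1 : 2 * m + 1 - 2 = 2 * m - 1 := by omega
  rw [e1]
  generalize p ^ f = q at *
  rcases Nat.lt_or_ge q 5 with h5 | h5
  · have hq : q = 3 := by
      obtain ⟨r, hr⟩ := hqo
      omega
    subst hq
    have h1 := (S2144.result hF m hm).1 H hH
    refine le_trans ?_ h1
    rw [Nat.le_div_iff_mul_le (by norm_num)]
    obtain ⟨k, rfl⟩ : ∃ k, m = k + 1 := ⟨m - 1, by omega⟩
    have h2 : 3 ^ (2 * (k + 1) - 1) = 3 * (3 ^ k * 3 ^ k) := by
      rw [show 2 * (k + 1) - 1 = 1 + (k + k) by omega, pow_add, pow_add, pow_one]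
    have h3 : 3 ^ (k + 1) = 3 * 3 ^ k := pow_succ' _ _
    have h4 : 1 ≤ 3 ^ k := Nat.one_le_pow _ _ (by norm_num)
    rw [h2, h3]
    generalize 3 ^ k = x at *
    obtain ⟨y, rfl⟩ : ∃ y, x = y + 1 := ⟨x - 1, by omega⟩
    rw [show 3 * (y + 1) - 1 = 3 * y + 2 by omega]
    nlinarith
  · have h1 := (S2143.result hF hqo h5 m hm).1 H hH
    refine le_trans ?_ h1
    rw [Nat.le_div_iff_mul_le (by omega)]
    have h2 : q ^ (2 * m) = q ^ (2 * m - 1) * q := by rw [← pow_succ]; congr 1; omega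
    have h3 : 1 ≤ q ^ (2 * m - 1) := Nat.one_le_pow _ _ (by omega)
    rw [h2, Nat.mul_sub, mul_one]
    omega

/-- `PΩ⁺_{2m}(q)` -/
theorem ob_plus {F : Type u} [Field F] [Fintype F] {p f : ℕ} (hp : p.Prime) (hf : 1 ≤ f)
    (hF : Fintype.card F = p ^ f) {m : ℕ} (hm : 4 ≤ m) (hZ : center (Cfsg.POmega F (Cfsg.quadFormPlus m F)) = ⊥) :
    OB (Cfsg.POmega F (Cfsg.quadFormPlus m F)) (p ^ f) (2 * m) := by
  have := Fact.mk hp
  haveI : Finite (Cfsg.isometryGroup F (Cfsg.quadFormPlus m F)) := inferInstance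
  haveI : Finite (Cfsg.POmega F (Cfsg.quadFormPlus m F)) := inferInstance
  have hout := card_out hZ (S0817.result p f hf hF m hm)
  have ho : Nat.card (Cfsg.Out (Cfsg.POmega F (Cfsg.quadFormPlus m F))) ≤ 24 * f := by
    rw [hout]
    apply Nat.mul_le_mul_right
    split_ifs <;> norm_num
  have ho2 : Even (p ^ f) → Nat.card (Cfsg.Out (Cfsg.POmega F (Cfsg.quadFormPlus m F))) ≤ 6 * f := by
    intro he
    rw [hout, if_pos (even_pow hp he)]
    apply Nat.mul_le_mul_right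
    split_ifs <;> norm_num
  have hq2 : 2 ≤ p ^ f := hp.two_le.trans (Nat.le_self_pow (by omega) p)
  by_cases hq3 : p ^ f = 3
  · rw [hq3] at hF ⊢
    have hf1 : f = 1 := by
      by_contra hne
      have h1 : p ^ 2 ≤ p ^ f := Nat.pow_le_pow_right hp.pos (by omega)
      have h2 := hp.two_le
      rw [hq3] at h1
      nlinarith
    subst hf1
    refine ob_three (by omega) (by omega) ?_
    intro H hH
    obtain ⟨k, rfl⟩ : ∃ k, m = k + 1 := ⟨m - 1, by omega⟩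
    refine le_trans ?_ (H500.AS.plus_three_index_ge hF (by omega) H hH)
    rw [Nat.le_div_iff_mul_le (by norm_num)]
    obtain ⟨j, rfl⟩ : ∃ j, k = j + 1 := ⟨k - 1, by omega⟩
    have h2 : 3 ^ (2 * (j + 1 + 1) - 3) = 3 * (3 ^ j * 3 ^ j) := by
      rw [show 2 * (j + 1 + 1) - 3 = 1 + (j + j) by omega, pow_add, pow_add, pow_one]
    have h3 : 3 ^ (j + 1) = 3 * 3 ^ j := pow_succ' _ _
    have h4 : 1 ≤ 3 ^ j := Nat.one_le_pow _ _ (by norm_num)
    rw [h2, h3]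
    generalize 3 ^ j = x at *
    obtain ⟨y, rfl⟩ : ∃ y, x = y + 1 := ⟨x - 1, by omega⟩
    rw [show 3 * (y + 1) - 1 = 3 * y + 2 by omega]
    nlinarith
  · refine ob_of hp hf rfl (by omega) ho ho2 ?_
    intro H hH
    generalize p ^ f = q at *
    obtain ⟨k, rfl⟩ : ∃ k, m = k + 1 := ⟨m - 1, by omega⟩
    have e1 : 2 * (k + 1) - 2 = k + k := by omega
    rw [e1, pow_add]
    rcases Nat.lt_or_ge q 4 with h4 | h4
    · have hq : q = 2 := by omega
      subst hq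
      refine le_trans ?_ ((S2146.result hF (k + 1) hm).1 H hH)
      rw [Nat.add_sub_cancel]
      apply Nat.mul_le_mul_left
      have h3 : 2 ^ (k + 1) = 2 * 2 ^ k := pow_succ' _ _
      have h4 : 1 ≤ 2 ^ k := Nat.one_le_pow _ _ (by norm_num)
      omega
    · refine le_trans ?_ ((S2145.result hF h4 (k + 1) hm).1 H hH)
      rw [Nat.le_div_iff_mul_le (by omega), Nat.add_sub_cancel]
      have h3 : q ^ (k + 1) = q * q ^ k := pow_succ' _ _
      have h5 : 1 ≤ q ^ k := Nat.one_le_pow _ _ (by omega)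
      rw [h3]
      generalize q ^ k = x at *
      obtain ⟨r, rfl⟩ : ∃ r, q = r + 1 := ⟨q - 1, by omega⟩
      obtain ⟨y, rfl⟩ : ∃ y, x = y + 1 := ⟨x - 1, by omega⟩
      rw [Nat.add_sub_cancel, show (r + 1) * (y + 1) - 1 = r * y + r + y by
        rw [show (r + 1) * (y + 1) = r * y + r + y + 1 by ring]; omega]
      nlinarith [Nat.zero_le (r * y), Nat.zero_le (y * y), Nat.zero_le (r * y * y)]

/-- `PΩ⁻_{2m}(q)` -/
theorem ob_minus {F : Type u} [Field F] [Fintype F] {p f : ℕ} (hp : p.Prime) (hf : 1 ≤ f)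
    (hF : Fintype.card F = p ^ f) {m : ℕ} (hm : 4 ≤ m) (a b : F)
    (hab : ∀ z₁ z₂ : F, z₁ ^ 2 + a * z₁ * z₂ + b * z₂ ^ 2 = 0 → z₁ = 0 ∧ z₂ = 0)
    (hZ : center (Cfsg.POmega F (Cfsg.quadFormMinus (m - 1) F a b)) = ⊥) :
    OB (Cfsg.POmega F (Cfsg.quadFormMinus (m - 1) F a b)) (p ^ f) (2 * m) := by
  have := Fact.mk hp
  haveI : Finite (Cfsg.isometryGroup F (Cfsg.quadFormMinus (m - 1) F a b)) := inferInstance
  haveI : Finite (Cfsg.POmega F (Cfsg.quadFormMinus (m - 1) F a b)) := inferInstance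
  have hout := card_out hZ (S0818.result p f hf hF m hm a b hab)
  have ho : Nat.card (Cfsg.Out (Cfsg.POmega F (Cfsg.quadFormMinus (m - 1) F a b))) ≤ 24 * f := by
    rw [hout]
    apply Nat.mul_le_mul_right
    split_ifs <;> norm_num
  have ho2 : Even (p ^ f) → Nat.card (Cfsg.Out (Cfsg.POmega F (Cfsg.quadFormMinus (m - 1) F a b))) ≤ 6 * f := by
    intro he
    rw [hout, if_pos (even_pow hp he)]
    apply Nat.mul_le_mul_right
    norm_num
  have hq2 : 2 ≤ p ^ f := hp.two_le.trans (Nat.le_self_pow (by omega) p)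
  refine ob_of hp hf rfl (by omega) ho ho2 ?_
  intro H hH
  refine le_trans ?_ ((S2147.result rfl m hm a b hab).1 H hH)
  rw [hF]
  generalize p ^ f = q at *
  obtain ⟨k, rfl⟩ : ∃ k, m = k + 2 := ⟨m - 2, by omega⟩
  have e1 : 2 * (k + 2) - 2 = 1 + 1 + (k + k) := by omega
  rw [e1, pow_add, pow_add, pow_add, pow_one, Nat.le_div_iff_mul_le (by omega), show k + 2 - 1 = k + 1 by omega]
  have h3 : q ^ (k + 2) = q * q * q ^ k := by ring
  have h3' : q ^ (k + 1) = q * q ^ k := by ring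
  have h6 : q ^ 2 ≤ q ^ k := Nat.pow_le_pow_right (by omega) (by omega)
  have h5 : 1 ≤ q ^ k := Nat.one_le_pow _ _ (by omega)
  rw [h3, h3']
  generalize q ^ k = x at *
  obtain ⟨r, rfl⟩ : ∃ r, q = r + 1 := ⟨q - 1, by omega⟩
  obtain ⟨y, rfl⟩ : ∃ y, x = y + (r + 1) ^ 2 := ⟨x - (r + 1) ^ 2, by omega⟩
  rw [Nat.add_sub_cancel]
  have h7 : (r + 1) * (y + (r + 1) ^ 2) - 1 = (r + 1) * y + r ^ 3 + 3 * r ^ 2 + 3 * r := by
    rw [show (r + 1) * (y + (r + 1) ^ 2) = (r + 1) * y + r ^ 3 + 3 * r ^ 2 + 3 * r + 1 by ring]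
    omega
  rw [h7]
  have hr : 1 ≤ r := by omega
  obtain ⟨s, rfl⟩ : ∃ s, r = s + 1 := ⟨r - 1, by omega⟩
  ring_nf
  omega

end Cfsg.Agent.H704.DPi
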